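import Cfsg.Agent.H1.FP0

/-! Chunks NU, FN, UN of the S4181 / S3580 interface. -/

set_option autoImplicit false

namespace H10.FP
open MulAction H1.FP
open scoped Pointwise
universe u v

theorem choose_ge : ∀ n r : ℕ, r + 1 < n → n ≤ n.choose (r + 1) := by
  intro n
  induction n with
  | zero => intro r h; omega
  | succ n ih =>
    intro r h
    rcases Nat.eq_zero_or_pos r with h0 | h0
    · subst h0; simp
    rcases Nat.lt_or_ge (r + 1) n with h1 | h1
    · rw [Nat.choose_succ_succ']
      have := ih r h1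
      have := Nat.choose_pos (n := n) (k := r) (by omega)
      omega
    · have : r + 1 = n := by omega
      rw [this, Nat.choose_succ_self_right]

theorem nu : NU := by
  intro p φ k l hp h3 hφ h2 hk h
  obtain ⟨j, rfl⟩ : ∃ j, k = j + 2 := ⟨k - 2, by omega⟩
  obtain ⟨q, rfl⟩ : ∃ q, p = q + 1 := ⟨p - 1, by omega⟩
  have hv := Nat.add_choose_eq (q + 1) φ (j + 2)
  have hsub : ({(0, j + 2), (1, j + 1), (2, j)} : Finset (ℕ × ℕ)) ⊆
      Finset.HasAntidiagonal.antidiagonal (j + 2) := by
    intro z hz
    simp only [Finset.mem_insert, Finset.mem_singleton] at hz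
    rcases hz with rfl | rfl | rfl <;> simp <;> omega
  have hle := Finset.sum_le_sum_of_subset
    (f := fun ij : ℕ × ℕ => (q + 1).choose ij.1 * φ.choose ij.2) hsub
  rw [← hv, Finset.sum_insert (by simp), Finset.sum_insert (by simp), Finset.sum_singleton] at hle
  simp only [Nat.choose_zero_right, Nat.choose_one_right, one_mul] at hle
  have hc2 : 2 * (q + 1).choose 2 = (q + 1) * q := by
    have : (q + 1).choose 2 * 2 = _ := Nat.choose_succ_right_eq (q + 1) 1
    simp only [Nat.choose_one_right, Nat.add_sub_cancel] at this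
    omega
  have h1 : φ ≤ φ.choose (j + 1) := choose_ge φ j (by omega)
  have h0 : 1 ≤ φ.choose j := Nat.choose_pos (by omega)
  have hr := Nat.choose_succ_right_eq φ (j + 1)
  rw [h] at hle
  simp only [Nat.add_sub_cancel]
  generalize φ.choose (j + 2) = C0 at *
  generalize φ.choose (j + 1) = C1 at *
  generalize φ.choose j = C2 at *
  generalize (q + 1).choose 2 = B at *
  have e1 : 2 * C1 + q * C2 ≤ 2 * l := by
    have : (q + 1) * (2 * C1 + q * C2) ≤ (q + 1) * (2 * l) := by nlinarith
    exact Nat.le_of_mul_le_mul_left this (by omega)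
  have e2 : 2 * C0 ≤ q * C1 := by
    have : φ - (j + 1) ≤ q := by omega
    nlinarith
  have hq : 2 ≤ q := by omega
  have e3 : q * (2 * C1 + q) ≤ q * (2 * l) := Nat.mul_le_mul_left _ (by nlinarith)
  nlinarith

theorem fn : FN.{u, v} := by
  classical
  intro p _ G _ _ P Δ _ _ a ht hP
  haveI := Fintype.ofFinite Δ
  haveI := Fintype.ofFinite (Sylow p G)
  have key := Finset.card_mul_eq_card_mul (s := (Finset.univ : Finset (Sylow p G)))
    (t := (Finset.univ : Finset Δ)) (fun (S : Sylow p G) (u : Δ) => (S : Subgroup G) ≤ stabilizer G u)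
    (m := fP (P : Subgroup G) Δ) (n := Nat.card (Sylow p (stabilizer G a))) ?_ ?_
  · rw [Finset.card_univ, Finset.card_univ, ← Nat.card_eq_fintype_card, ← Nat.card_eq_fintype_card] at key
    rw [mul_comm, key]
  · intro S _
    obtain ⟨g, rfl⟩ := exists_smul_eq G P S
    rw [fP, ← Nat.card_eq_finsetCard]
    refine Nat.card_congr ⟨fun u => ⟨g⁻¹ • u.1, fun y => ?_⟩, fun w => ⟨g • w.1, ?_⟩, ?_, ?_⟩
    · have hu : ((g • P : Sylow p G) : Subgroup G) ≤ stabilizer G u.1 :=
        ((Finset.mem_bipartiteAbove _).1 u.2).2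
      have : g * y * g⁻¹ ∈ ((g • P : Sylow p G) : Subgroup G) := by
        rw [Sylow.coe_subgroup_smul]
        exact Subgroup.smul_mem_pointwise_smul _ _ _ y.2
      have h2 : (g * y * g⁻¹) • u.1 = u.1 := hu this
      show (y : G) • g⁻¹ • u.1 = g⁻¹ • u.1
      rw [eq_inv_smul_iff, ← mul_smul, ← mul_smul]
      exact h2
    · simp only [Finset.mem_bipartiteAbove, Finset.mem_univ, true_and]
      intro z hz
      rw [Sylow.coe_subgroup_smul, Subgroup.mem_pointwise_smul_iff_inv_smul_mem] at hz
      have h2 : (g⁻¹ * z * g) • w.1 = w.1 := by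
        have := w.2 ⟨_, hz⟩
        simpa using this
      show z • g • w.1 = g • w.1
      rw [mul_smul, mul_smul, inv_smul_eq_iff] at h2
      exact h2
    · intro u; simp
    · intro w; simp
  · intro u _
    obtain ⟨g, rfl⟩ := ht.exists_smul_eq a u
    rw [← Nat.card_eq_finsetCard]
    have hm : ∀ S : Sylow p G, (S : Subgroup G) ≤ stabilizer G (g • a) →
        ((g⁻¹ • S : Sylow p G) : Subgroup G) ≤ stabilizer G a := by
      intro S hS z hz
      rw [Sylow.coe_subgroup_smul, Subgroup.mem_pointwise_smul_iff_inv_smul_mem] at hz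
      have h2 : (g * z * g⁻¹) • g • a = g • a := by
        have := hS hz
        simpa using this
      rw [mul_smul, inv_smul_smul, mul_smul] at h2
      exact smul_left_cancel g h2
    refine Nat.card_congr (Equiv.ofBijective
      (fun S => (g⁻¹ • S.1 : Sylow p G).subtype (hm S.1 ((Finset.mem_bipartiteBelow _).1 S.2).2)) ⟨?_, ?_⟩)
    · intro S T h
      exact Subtype.ext (smul_left_cancel g⁻¹ (Sylow.subtype_injective h))
    · intro T
      obtain ⟨h, rfl⟩ := exists_smul_eq (stabilizer G a) (P.subtype hP) T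
      refine ⟨⟨g • (h • P), ?_⟩, ?_⟩
      · simp only [Finset.mem_bipartiteBelow, Finset.mem_univ, true_and]
        intro z hz
        rw [Sylow.coe_subgroup_smul, Subgroup.mem_pointwise_smul_iff_inv_smul_mem] at hz
        have h2 : (g⁻¹ * z * g) • a = a := by
          have := Sylow.smul_le hP h hz
          simpa using this
        show z • g • a = g • a
        rw [mul_smul, mul_smul, inv_smul_eq_iff] at h2
        exact h2
      · rw [Sylow.smul_subtype]
        simp

section un
variable {p : ℕ} {K : Type u} [Group K] {x : K} {A : Type u} [MulAction K A]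
  {Θ : Type u} [MulAction K Θ]

/-- points of `A` fixed by the subgroup generated by the order `p` elements fixing `u` -/
def ze (p : ℕ) (K : Type u) [Group K] (A : Type u) [MulAction K A] {Θ : Type u} [MulAction K Θ]
    (u : Θ) : Set A := {α | ∀ y ∈ Op p (stabilizer K u), y • α = α}

theorem ze_smul (g : K) (u : Θ) (α : A) : g • α ∈ ze p K A (g • u) ↔ α ∈ ze p K A u := by
  have key : ∀ (g : K) (u : Θ) (α : A), α ∈ ze p K A u → g • α ∈ ze p K A (g • u) := by
    intro g u α h y hy
    have h1 : g⁻¹ * y * g⁻¹⁻¹ ∈ Op p (stabilizer K (g⁻¹ • g • u)) := Op_conj hy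
    rw [inv_smul_smul] at h1
    have h2 := h _ h1
    rw [inv_inv, mul_smul, mul_smul, inv_smul_eq_iff] at h2
    exact h2
  refine ⟨fun h => ?_, key g u α⟩
  have := key g⁻¹ _ _ h
  rwa [inv_smul_smul, inv_smul_smul] at this

/-- when `x` has a single `p`-cycle, the moved points form one `⟨x⟩`-orbit -/
theorem cyc [Finite A] (hp : p.Prime) (ho : orderOf x = p) (h1 : lx p x A = 1) {u w : A}
    (hu : x • u ≠ u) (hw : x • w ≠ w) : w ∈ orbit (Subgroup.zpowers x) u := by
  have hc := card_eq (Δ := A) hp ho
  rw [h1, fx_eq] at hc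
  have hsub : orbit (Subgroup.zpowers x) u ⊆ (fixedBy A x)ᶜ := by
    rintro _ ⟨g, rfl⟩ h
    apply hu
    have h2 : x • (g : K) • u = (g : K) • u := h
    have hcm : x * g = g * x := by
      obtain ⟨n, hn⟩ := g.2
      rw [← hn]; exact (Commute.self_zpow x n).eq
    rw [← mul_smul, hcm, mul_smul] at h2
    exact smul_left_cancel _ h2
  have hd : (orbit (Subgroup.zpowers x) u).ncard ∣ p := by
    rw [← index_stabilizer, ← ho, ← Nat.card_zpowers]
    exact Subgroup.index_dvd_card _
  have hn : (orbit (Subgroup.zpowers x) u).ncard = p := by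
    rcases (Nat.dvd_prime hp).1 hd with h | h
    · rw [← index_stabilizer, Subgroup.index_eq_one] at h
      have : (⟨x, Subgroup.mem_zpowers x⟩ : Subgroup.zpowers x) ∈ stabilizer (Subgroup.zpowers x) u := by
        rw [h]; trivial
      exact absurd this hu
    · exact h
  have hco := Set.ncard_add_ncard_compl (fixedBy A x)
  have := Set.eq_of_subset_of_ncard_le hsub (by omega)
  rw [this]; exact hw

end un

theorem un (l1 : L1.{u}) (al : AL.{u}) : UN.{u} := by
  classical
  intro p K _ _ x A _ _ Θ _ _ s h3 hAl hpr h2 h1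
  haveI := Fintype.ofFinite A
  haveI := Fintype.ofFinite Θ
  obtain ⟨htA, hl, hφ⟩ := hAl
  have hlt := (l1 p K x A s htA hl).2
  have hcA := card_eq (Δ := A) s.hp s.ord
  rw [hl, mul_one] at hcA
  have hA2 : 2 ≤ Nat.card A := by omega
  have hrange := al p K x A s h3 ⟨htA, hl, hφ⟩
  obtain ⟨⟨c, hc⟩⟩ : Nonempty (fixedBy Θ x) := (Nat.card_pos_iff.1 h1).1
  have hxJ : x ∈ Op p (stabilizer K c) := mem_Op hc s.ord
  obtain ⟨u0, hu0⟩ := s.moves htA hA2
  have htΘ := hpr.toIsPretransitive
  rcases (ze p K A c).eq_empty_or_nonempty with hZ | ⟨α0, hα0⟩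
  · left
    have htJ : IsPretransitive (Op p (stabilizer K c)) A := by
      have hall : ∀ α : A, α ∈ orbit (Op p (stabilizer K c)) u0 := by
        intro α
        by_contra hα
        have : α ∈ ze p K A c := by
          intro y hy
          have hle : (⊤ : Subgroup (Op p (stabilizer K c))) ≤ stabilizer _ α := by
            rw [← (s.sub hxJ).gen]
            refine (Subgroup.closure_le _).2 fun z hz => ?_
            obtain ⟨g, hg⟩ := (s.sub hxJ).conj_fix hz
            refine (hg A α).2 ?_
            by_contra hm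
            obtain ⟨t, ht⟩ := cyc s.hp s.ord hl hu0 hm
            apply hα
            refine ⟨g * ⟨t, (Subgroup.zpowers_le (H := Op p (stabilizer K c))).2 hxJ t.2⟩, ?_⟩
            show (g * _) • u0 = α
            rw [mul_smul, smul_eq_iff_eq_inv_smul]
            exact ht
          exact hle (Subgroup.mem_top (⟨y, hy⟩ : Op p (stabilizer K c)))
        rw [hZ] at this
        exact this
      refine ⟨fun a b => ?_⟩
      obtain ⟨g, rfl⟩ := hall a
      obtain ⟨h, rfl⟩ := hall b
      exact ⟨h * g⁻¹, by simp [mul_smul]⟩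
    have hrJ := al p _ (⟨x, hxJ⟩ : Op p (stabilizer K c)) A (s.sub hxJ) h3 ⟨htJ, hl, hφ⟩
    have hall : ∀ w : Θ, ∃ n : kr K A, n • c = w := by
      intro w
      obtain ⟨g, rfl⟩ := htΘ.exists_smul_eq c w
      have : toPermHom K A g ∈ (toPermHom (Op p (stabilizer K c)) A).range := by
        rw [hrJ, ← hrange]; exact ⟨g, rfl⟩
      obtain ⟨j, hj⟩ := this
      have hj' : toPermHom K A j = toPermHom K A g := hj
      refine ⟨⟨g * (j : K)⁻¹, ?_⟩, ?_⟩
      · rw [MonoidHom.mem_ker, map_mul, map_inv, hj', mul_inv_cancel]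
      · show (g * (j : K)⁻¹) • c = g • c
        have : (j : K)⁻¹ • c = c := (stabilizer K c).inv_mem (Op_le _ j.2)
        rw [mul_smul, this]
    refine ⟨fun a b => ?_⟩
    obtain ⟨g, rfl⟩ := hall a
    obtain ⟨h, rfl⟩ := hall b
    exact ⟨h * g⁻¹, by simp [mul_smul]⟩
  right
  haveI : Nontrivial Θ := Finite.one_lt_card_iff_nontrivial.1 h2
  have hsm : ∀ (g : K) (w : Θ), ze p K A (g • w) = (fun α => g • α) '' ze p K A w := by
    intro g w
    ext α
    constructor
    · intro h
      refine ⟨g⁻¹ • α, ?_, smul_inv_smul g α⟩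
      rw [← ze_smul g, smul_inv_smul]; exact h
    · rintro ⟨β, hβ, rfl⟩
      exact (ze_smul g w β).2 hβ
  have hinj : ∀ w w' : Θ, ze p K A w = ze p K A w' → w = w' := by
    let S : Subgroup K :=
      { carrier := {g | ze p K A (g • c) = ze p K A c}
        one_mem' := by simp
        mul_mem' := by
          intro g h hg hh
          have hg' : ze p K A (g • c) = ze p K A c := hg
          have hh' : ze p K A (h • c) = ze p K A c := hh
          show ze p K A ((g * h) • c) = ze p K A c
          rw [mul_smul, hsm, hh', ← hsm, hg']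
        inv_mem' := by
          intro g hg
          have hg' : ze p K A (g • c) = ze p K A c := hg
          show ze p K A (g⁻¹ • c) = ze p K A c
          rw [hsm, ← hg', ← hsm, inv_smul_smul, hg'] }
    have hco := IsPreprimitive.isCoatom_stabilizer_of_isPreprimitive K c
    have hle : stabilizer K c ≤ S := fun g hg => by
      show ze p K A (g • c) = ze p K A c
      rw [mem_stabilizer_iff.1 hg]
    have hne : S ≠ ⊤ := by
      intro h
      obtain ⟨g, hg⟩ := htA.exists_smul_eq α0 u0
      have hgS : g ∈ S := by rw [h]; trivial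
      have hg' : ze p K A (g • c) = ze p K A c := hgS
      have : u0 ∈ ze p K A c := by rw [← hg', ← hg]; exact (ze_smul g c α0).2 hα0
      exact hu0 (this x hxJ)
    have hS : S = stabilizer K c := by
      rcases hle.lt_or_eq with h | h
      · exact absurd (hco.2 S h) hne
      · exact h.symm
    intro w w' h
    obtain ⟨g, rfl⟩ := htΘ.exists_smul_eq c w
    obtain ⟨g', rfl⟩ := htΘ.exists_smul_eq c w'
    have : g⁻¹ * g' ∈ S := by
      show ze p K A ((g⁻¹ * g') • c) = ze p K A c
      rw [mul_smul, hsm, ← h, ← hsm, inv_smul_smul]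
    rw [hS, mem_stabilizer_iff, mul_smul, inv_smul_eq_iff] at this
    exact this.symm
  have hcard : ∀ w : Θ, (ze p K A w).ncard = (ze p K A c).ncard := by
    intro w
    obtain ⟨g, rfl⟩ := htΘ.exists_smul_eq c w
    rw [hsm, Set.ncard_image_of_injective _ (MulAction.injective g)]
  have hfix : ∀ w : Θ, x • w = w ↔ ze p K A w ⊆ fixedBy A x := by
    intro w
    constructor
    · intro h α hα
      exact hα x (mem_Op h s.ord)
    · intro h
      apply hinj
      rw [hsm]
      ext α
      constructor
      · rintro ⟨β, hβ, rfl⟩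
        have : x • β = β := h hβ
        show x • β ∈ _
        rw [this]; exact hβ
      · intro hα
        exact ⟨α, hα, h hα⟩
  have hkpos : 1 ≤ (ze p K A c).ncard := (Set.ncard_pos (Set.toFinite _)).2 ⟨α0, hα0⟩
  have hkle : (ze p K A c).ncard ≤ fx x A := by
    rw [fx_eq]; exact Set.ncard_le_ncard ((hfix c).1 hc)
  rcases hkpos.eq_or_lt with hk1 | hk2
  · left
    have hex : ∀ w : Θ, ∃ α : A, ze p K A w = {α} := fun w =>
      Set.ncard_eq_one.1 (by rw [hcard, hk1])
    choose e he using hex
    have heq : ∀ (g : K) (w : Θ), e (g • w) = g • e w := by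
      intro g w
      have := hsm g w
      rw [he, he, Set.image_singleton] at this
      exact Set.singleton_injective this
    refine ⟨Equiv.ofBijective e ⟨fun w w' h => hinj w w' (by rw [he, he, h]), fun α => ?_⟩, heq⟩
    obtain ⟨g, rfl⟩ := htA.exists_smul_eq (e c) α
    exact ⟨g • c, heq g c⟩
  right
  have hsurj : ∀ T : Finset A, T.card = (ze p K A c).ncard → ∃ w : Θ, ze p K A w = T := by
    intro T hT
    have htr := Set.powersetCard.isPretransitive_alternatingGroup (α := A)
      (n := (ze p K A c).ncard) (by omega)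
    obtain ⟨σ, hσ⟩ := htr.exists_smul_eq
      ⟨(ze p K A c).toFinset, by rw [Set.powersetCard.mem_iff, Set.ncard_eq_toFinset_card']⟩ ⟨T, hT⟩
    have hσ' := congrArg Subtype.val hσ
    have : (σ : Equiv.Perm A) ∈ (toPermHom K A).range := by rw [hrange]; exact σ.2
    obtain ⟨g, hg⟩ := this
    refine ⟨g • c, ?_⟩
    rw [hsm]
    have hσ2 : σ • (ze p K A c).toFinset = T := hσ'
    rw [← hσ2, Finset.coe_smul_finset, Set.coe_toFinset]
    ext α
    simp only [Set.mem_image, Set.mem_smul_set]
    have : ∀ β : A, σ • β = g • β := fun β => by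
      show (σ : Equiv.Perm A) β = _
      rw [← hg]; rfl
    simp only [this]
  have hcount : ∀ (B : Set A), Nat.card {w : Θ // ze p K A w ⊆ B} = B.ncard.choose (ze p K A c).ncard := by
    intro B
    rw [Set.ncard_eq_toFinset_card' B, ← Finset.card_powersetCard, ← Nat.card_eq_finsetCard]
    refine Nat.card_congr (Equiv.ofBijective (fun w => ⟨(ze p K A w.1).toFinset, ?_⟩) ⟨?_, ?_⟩)
    · rw [Finset.mem_powersetCard, Set.toFinset_subset_toFinset, ← Set.ncard_eq_toFinset_card']
      exact ⟨w.2, hcard _⟩
    · intro w w' h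
      exact Subtype.ext (hinj _ _ (Set.toFinset_inj.1 (congrArg Subtype.val h)))
    · rintro ⟨T, hT⟩
      rw [Finset.mem_powersetCard] at hT
      obtain ⟨w, hw⟩ := hsurj T hT.2
      refine ⟨⟨w, ?_⟩, Subtype.ext ?_⟩
      · rw [hw]; intro α hα; exact Set.mem_toFinset.1 (hT.1 hα)
      · show (ze p K A w).toFinset = T
        ext α; rw [Set.mem_toFinset, hw]; rfl
  refine ⟨(ze p K A c).ncard, hk2, hkle, ?_, ?_⟩
  · rw [fx_eq (Δ := A), ← hcount, fx]
    exact Nat.card_congr (Equiv.subtypeEquivRight fun w => hfix w)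
  · rw [add_comm, ← hcA, ← Set.ncard_univ A, ← hcount]
    exact (Nat.card_congr (Equiv.subtypeUnivEquiv fun w => Set.subset_univ _)).symm

end H10.FP
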